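import Groth.Agent.Pi1.H404.AlgCore
import Groth.Agent.Sga3A.SmoothDomain
import Groth.Agent.Desc.NormalSmooth
import Mathlib.RingTheory.Ideal.Height
import Mathlib.RingTheory.Ideal.GoingDown
import Mathlib.RingTheory.Smooth.Flat

/-!
# The generic point of a coordinate hyperplane through a point

`O` a normal domain, `B` étale over `O[X_j]_{j ∈ σ}`, `q` a prime of `B` containing `X_i`: there is a unique
prime `coordPrime i q` minimal over `(X_i)` and contained in `q`.
-/

set_option autoImplicit false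

open TensorProduct

namespace Groth.Agent.Pi1.H395.Coord

open Groth.Agent.Pi1.H404.AlgCore

/-- The kernel of `B → P' ⊗ B` for a surjection `P → P'`. -/
theorem mem_map_ker_of_includeRight {P P' B : Type*} [CommRing P] [CommRing P'] [Algebra P P']
    [CommRing B] [Algebra P B] (hs : Function.Surjective (algebraMap P P')) (b : B)
    (hb : (Algebra.TensorProduct.includeRight : B →ₐ[P] P' ⊗[P] B) b = 0) :
    b ∈ (RingHom.ker (algebraMap P P')).map (algebraMap P B) := by
  let q := (RingHom.ker (algebraMap P P')).map (algebraMap P B)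
  let D := B ⧸ q
  let g : P →+* D := algebraMap P D
  have hg : ∀ p : P, algebraMap P P' p = 0 → g p = 0 := fun p hp => by
    change algebraMap P (B ⧸ q) p = 0
    rw [IsScalarTower.algebraMap_apply P B (B ⧸ q)]
    exact Ideal.Quotient.eq_zero_iff_mem.2 (Ideal.mem_map_of_mem _ hp)
  let g' : P' →ₐ[P] D :=
    { toRingHom := RingHom.liftOfSurjective (algebraMap P P') hs ⟨g, hg⟩
      commutes' := fun r => RingHom.liftOfRightInverse_comp_apply _ _ _ ⟨g, hg⟩ r }
  let h : P' ⊗[P] B →ₐ[P] D := Algebra.TensorProduct.lift g' (IsScalarTower.toAlgHom P B D)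
    (fun x y => Commute.all _ _)
  have h1 : h ((Algebra.TensorProduct.includeRight : B →ₐ[P] P' ⊗[P] B) b) = algebraMap B D b := by
    have : h ((Algebra.TensorProduct.includeRight : B →ₐ[P] P' ⊗[P] B) b) =
        g' 1 * IsScalarTower.toAlgHom P B D b :=
      Algebra.TensorProduct.lift_tmul _ _ _ _ _
    rw [this, map_one, one_mul]
    rfl
  rw [hb, map_zero] at h1
  exact Ideal.Quotient.eq_zero_iff_mem.1 h1.symm

section

variable {O : Type*} [CommRing O] {σ : Type*}

/-- The kernel of the projection killing `X_i`. -/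
theorem X_dvd_of_killCompl_eq_zero (i : σ) (p : MvPolynomial σ O)
    (h : MvPolynomial.killCompl (f := (Subtype.val : {j // j ≠ i} → σ)) Subtype.val_injective p = 0) :
    MvPolynomial.X i ∣ p := by
  classical
  rw [X_dvd_iff]
  have h1 : kill O i = (MvPolynomial.rename (Subtype.val : {j // j ≠ i} → σ)).comp
      (MvPolynomial.killCompl (f := (Subtype.val : {j // j ≠ i} → σ)) Subtype.val_injective) := by
    apply MvPolynomial.algHom_ext
    intro j
    by_cases hj : j = i
    · subst hj
      simp [kill, MvPolynomial.killCompl]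
    · have h2 : (MvPolynomial.X j : MvPolynomial σ O) =
          MvPolynomial.rename (Subtype.val : {k // k ≠ i} → σ) (MvPolynomial.X ⟨j, hj⟩) := by
        rw [MvPolynomial.rename_X]
      rw [AlgHom.comp_apply, h2, MvPolynomial.killCompl_rename_app]
      simp [kill, hj]
  rw [h1, AlgHom.comp_apply, h, map_zero]

variable [IsDomain O] [IsIntegrallyClosed O] {B : Type*} [CommRing B] [Algebra (MvPolynomial σ O) B]
  [Algebra.Etale (MvPolynomial σ O) B]

/-- Locally on `B`, the ring `B ⧸ X_i` is a domain. -/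
theorem exists_mul_mem_span_or (i : σ) (q : Ideal B) [q.IsPrime] {x y : B}
    (h : x * y ∈ Ideal.span {algebraMap (MvPolynomial σ O) B (MvPolynomial.X i)}) :
    (∃ s : B, s ∉ q ∧ s * x ∈ Ideal.span {algebraMap (MvPolynomial σ O) B (MvPolynomial.X i)}) ∨
      (∃ s : B, s ∉ q ∧ s * y ∈ Ideal.span {algebraMap (MvPolynomial σ O) B (MvPolynomial.X i)}) := by
  classical
  let κ : MvPolynomial σ O →ₐ[O] MvPolynomial {j // j ≠ i} O :=
    MvPolynomial.killCompl (f := (Subtype.val : {j // j ≠ i} → σ)) Subtype.val_injective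
  let _ : Algebra (MvPolynomial σ O) (MvPolynomial {j // j ≠ i} O) := κ.toRingHom.toAlgebra
  have hs : Function.Surjective (algebraMap (MvPolynomial σ O) (MvPolynomial {j // j ≠ i} O)) :=
    fun p => ⟨MvPolynomial.rename Subtype.val p, MvPolynomial.killCompl_rename_app _ p⟩
  have hkX : κ (MvPolynomial.X i) = 0 := by
    simp [κ, MvPolynomial.killCompl]
  have hker : RingHom.ker (algebraMap (MvPolynomial σ O) (MvPolynomial {j // j ≠ i} O)) ≤
      Ideal.span {MvPolynomial.X i} := by
    intro p hp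
    rw [Ideal.mem_span_singleton]
    exact X_dvd_of_killCompl_eq_zero i p hp
  have hmem : ∀ b : B, (Algebra.TensorProduct.includeRight : B →ₐ[MvPolynomial σ O]
      MvPolynomial {j // j ≠ i} O ⊗[MvPolynomial σ O] B) b = 0 →
      b ∈ Ideal.span {algebraMap (MvPolynomial σ O) B (MvPolynomial.X i)} := by
    intro b hb
    have h1 := Ideal.map_mono hker (mem_map_ker_of_includeRight hs b hb)
    rwa [Ideal.map_span, Set.image_singleton] at h1
  have hzero : ∀ b ∈ Ideal.span {algebraMap (MvPolynomial σ O) B (MvPolynomial.X i)},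
      (Algebra.TensorProduct.includeRight : B →ₐ[MvPolynomial σ O]
      MvPolynomial {j // j ≠ i} O ⊗[MvPolynomial σ O] B) b = 0 := by
    intro b hb
    obtain ⟨c, rfl⟩ := Ideal.mem_span_singleton'.1 hb
    rw [map_mul, AlgHom.commutes]
    have h2 : algebraMap (MvPolynomial σ O) (MvPolynomial {j // j ≠ i} O ⊗[MvPolynomial σ O] B)
        (MvPolynomial.X i) = 0 := by
      rw [IsScalarTower.algebraMap_apply (MvPolynomial σ O) (MvPolynomial {j // j ≠ i} O)]
      have h3 : algebraMap (MvPolynomial σ O) (MvPolynomial {j // j ≠ i} O) (MvPolynomial.X i) = 0 := hkX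
      rw [h3, map_zero]
    rw [h2, mul_zero]
  have : IsIntegrallyClosed (MvPolynomial {j // j ≠ i} O) :=
    Desc.NormalSmooth.isIntegrallyClosed_mvPolynomial _
  obtain ⟨c, hc, hcx, hcy⟩ := Sga3A.SmoothDomain.exists_idempotent_of_etale_normal
    (MvPolynomial {j // j ≠ i} O) (MvPolynomial {j // j ≠ i} O ⊗[MvPolynomial σ O] B)
    ((Algebra.TensorProduct.includeRight : B →ₐ[MvPolynomial σ O]
      MvPolynomial {j // j ≠ i} O ⊗[MvPolynomial σ O] B) x)
    ((Algebra.TensorProduct.includeRight : B →ₐ[MvPolynomial σ O]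
      MvPolynomial {j // j ≠ i} O ⊗[MvPolynomial σ O] B) y)
    (by rw [← map_mul]; exact hzero _ h)
  obtain ⟨b, rfl⟩ := Algebra.TensorProduct.includeRight_surjective B hs c
  by_cases hb : b ∈ q
  · left
    refine ⟨1 - b, fun h' => ?_, hmem _ ?_⟩
    · exact (Ideal.ne_top_iff_one q).1 (Ideal.IsPrime.ne_top ‹_›) (by
        have := q.add_mem h' hb
        rwa [sub_add_cancel] at this)
    · rw [map_mul, map_sub, map_one, sub_mul, one_mul, sub_eq_zero]
      exact hcx.symm
  · right
    exact ⟨b, hb, hmem _ (by rw [map_mul]; exact hcy)⟩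

variable (O) in
/-- The prime ideal of the generic point of the hyperplane `X_i = 0` through the point `q`. -/
noncomputable def coordPrime (i : σ) (q : Ideal B) [q.IsPrime] : Ideal B where
  carrier := {a | ∃ s : B, s ∉ q ∧ s * a ∈ Ideal.span {algebraMap (MvPolynomial σ O) B (MvPolynomial.X i)}}
  add_mem' := by
    rintro a b ⟨s, hs, hsa⟩ ⟨t, ht, htb⟩
    refine ⟨s * t, fun h => (Ideal.IsPrime.mem_or_mem ‹_› h).elim hs ht, ?_⟩
    have : s * t * (a + b) = t * (s * a) + s * (t * b) := by ring
    rw [this]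
    exact Ideal.add_mem _ (Ideal.mul_mem_left _ _ hsa) (Ideal.mul_mem_left _ _ htb)
  zero_mem' := ⟨1, (Ideal.ne_top_iff_one q).1 (Ideal.IsPrime.ne_top ‹_›), by simp⟩
  smul_mem' := by
    rintro c a ⟨s, hs, hsa⟩
    refine ⟨s, hs, ?_⟩
    rw [smul_eq_mul, mul_left_comm]
    exact Ideal.mul_mem_left _ _ hsa

omit [IsDomain O] [IsIntegrallyClosed O] [Algebra.Etale (MvPolynomial σ O) B] in
theorem mem_coordPrime_iff (i : σ) (q : Ideal B) [q.IsPrime] (a : B) : a ∈ coordPrime O i q ↔
    ∃ s : B, s ∉ q ∧ s * a ∈ Ideal.span {algebraMap (MvPolynomial σ O) B (MvPolynomial.X i)} := Iff.rfl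

omit [IsDomain O] [IsIntegrallyClosed O] [Algebra.Etale (MvPolynomial σ O) B] in
theorem X_mem_coordPrime (i : σ) (q : Ideal B) [q.IsPrime] :
    algebraMap (MvPolynomial σ O) B (MvPolynomial.X i) ∈ coordPrime O i q :=
  ⟨1, (Ideal.ne_top_iff_one q).1 (Ideal.IsPrime.ne_top ‹_›), by
    rw [one_mul]; exact Ideal.mem_span_singleton_self _⟩

omit [IsDomain O] [IsIntegrallyClosed O] [Algebra.Etale (MvPolynomial σ O) B] in
theorem coordPrime_le_of_mem (i : σ) (q : Ideal B) [q.IsPrime] (P : Ideal B) [P.IsPrime] (hP : P ≤ q)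
    (hX : algebraMap (MvPolynomial σ O) B (MvPolynomial.X i) ∈ P) : coordPrime O i q ≤ P := by
  rintro a ⟨s, hs, hsa⟩
  have h1 : s * a ∈ P := ((Ideal.span_singleton_le_iff_mem _).2 hX) hsa
  exact (Ideal.IsPrime.mem_or_mem ‹_› h1).resolve_left fun h => hs (hP h)

theorem coordPrime_isPrime (i : σ) (q : Ideal B) [q.IsPrime]
    (hX : algebraMap (MvPolynomial σ O) B (MvPolynomial.X i) ∈ q) : (coordPrime O i q).IsPrime := by
  refine ⟨?_, ?_⟩
  · intro h
    have h1 := coordPrime_le_of_mem i q q le_rfl hX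
    rw [h, top_le_iff] at h1
    exact Ideal.IsPrime.ne_top ‹_› h1
  · rintro a b ⟨s, hs, hsab⟩
    rw [← mul_assoc] at hsab
    rcases exists_mul_mem_span_or i q hsab with ⟨t, ht, h⟩ | ⟨t, ht, h⟩
    · left
      exact ⟨t * s, fun h => (Ideal.IsPrime.mem_or_mem ‹_› h).elim ht hs, by rwa [mul_assoc]⟩
    · right
      exact ⟨t, ht, h⟩

theorem coordPrime_mem_minimalPrimes (i : σ) (q : Ideal B) [q.IsPrime]
    (hX : algebraMap (MvPolynomial σ O) B (MvPolynomial.X i) ∈ q) :
    coordPrime O i q ∈ (Ideal.span {algebraMap (MvPolynomial σ O) B (MvPolynomial.X i)}).minimalPrimes := by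
  refine ⟨⟨coordPrime_isPrime i q hX, (Ideal.span_singleton_le_iff_mem _).2 (X_mem_coordPrime i q)⟩, ?_⟩
  rintro P ⟨hP, hXP⟩ hle
  exact coordPrime_le_of_mem i q P (hle.trans (coordPrime_le_of_mem i q q le_rfl hX))
    (hXP (Ideal.mem_span_singleton_self _))

/-- Uniqueness of the generic point of the hyperplane through `q`. -/
theorem eq_coordPrime (i : σ) (q : Ideal B) [q.IsPrime]
    {P : Ideal B} (hP : P ∈ (Ideal.span {algebraMap (MvPolynomial σ O) B (MvPolynomial.X i)}).minimalPrimes)
    (hle : P ≤ q) : P = coordPrime O i q := by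
  have hX : algebraMap (MvPolynomial σ O) B (MvPolynomial.X i) ∈ P :=
    hP.1.2 (Ideal.mem_span_singleton_self _)
  have := hP.1.1
  have h1 := coordPrime_le_of_mem i q P hle hX
  refine le_antisymm (hP.2 ⟨coordPrime_isPrime i q (hle hX),
    (Ideal.span_singleton_le_iff_mem _).2 (X_mem_coordPrime i q)⟩ h1) h1

omit [IsDomain O] [IsIntegrallyClosed O] in
theorem algebraMap_X_mem_nonZeroDivisors (i : σ) :
    algebraMap (MvPolynomial σ O) B (MvPolynomial.X i) ∈ nonZeroDivisors B := by
  have := ttB_mem_nonZeroDivisors (A := O) B {i}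
  rwa [ttB, tt, Finset.prod_singleton] at this

/-- A prime of height at most one containing `X_i` is the generic point of a component of the hyperplane. -/
theorem eq_coordPrime_of_height_le_one (i : σ) (P : Ideal B) [P.IsPrime] (hP : P.height ≤ 1)
    (hX : algebraMap (MvPolynomial σ O) B (MvPolynomial.X i) ∈ P) : P = coordPrime O i P := by
  have hp := coordPrime_isPrime i P hX
  have hle := coordPrime_le_of_mem i P P le_rfl hX
  by_contra hne
  have hlt : coordPrime O i P < P := lt_of_le_of_ne hle (Ne.symm hne)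
  have h1 : 1 ≤ (coordPrime O i P).height :=
    (Ideal.one_le_height_span_singleton_of_mem_nonZeroDivisors
      (algebraMap_X_mem_nonZeroDivisors (O := O) (B := B) i)).trans
      (Ideal.height_mono ((Ideal.span_singleton_le_iff_mem _).2 (X_mem_coordPrime i P)))
  have h2 : (coordPrime O i P).height + 1 ≤ P.height := Ideal.height_add_one_le_of_lt_of_isPrime hlt
  have h3 : (2 : ℕ∞) ≤ 1 := by
    calc (2 : ℕ∞) = 1 + 1 := by norm_num
      _ ≤ (coordPrime O i P).height + 1 := by gcongr
      _ ≤ P.height := h2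
      _ ≤ 1 := hP
  exact absurd h3 (by norm_num)

/-- A minimal prime over a principal ideal contracts to a minimal prime along a flat map. -/
theorem comap_mem_minimalPrimes_span {A C : Type*} [CommRing A] [CommRing C] [Algebra A C]
    [Module.Flat A C] (a : A) {P : Ideal C} (hP : P ∈ (Ideal.span {algebraMap A C a}).minimalPrimes) :
    P.comap (algebraMap A C) ∈ (Ideal.span {a}).minimalPrimes := by
  have hPp := hP.1.1
  have haP : algebraMap A C a ∈ P := hP.1.2 (Ideal.mem_span_singleton_self _)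
  refine ⟨⟨Ideal.comap_isPrime _ _, (Ideal.span_singleton_le_iff_mem _).2 haP⟩, ?_⟩
  rintro Q ⟨hQ, haQ⟩ hle
  obtain ⟨Q', hQ'le, hQ'p, hQ'⟩ := Ideal.exists_ideal_le_liesOver_of_le (R := A) (S := C) (p := Q)
    (q := P.comap (algebraMap A C)) P hle
  have h1 : algebraMap A C a ∈ Q' := by
    have : a ∈ Q'.under A := by
      rw [← hQ'.over]
      exact haQ (Ideal.mem_span_singleton_self _)
    exact this
  have h2 : P ≤ Q' := hP.2 ⟨hQ'p, (Ideal.span_singleton_le_iff_mem _).2 h1⟩ hQ'le
  intro x hx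
  rw [hQ'.over]
  exact h2 hx

end

end Groth.Agent.Pi1.H395.Coord
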