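import Groth.Agent.Sga1.EtaleHom
import Groth.Agent.Sga1.SigmaFinite
import Groth.Agent.Pi1A.Agree
import Groth.Agent.Pi1B.FEtGalois
import Groth.Prelude.Def_Pi1

/-!
# Descent of sections of finite etale covers along a finite family of integral morphisms
-/

set_option autoImplicit false
universe u

open CategoryTheory CategoryTheory.Limits AlgebraicGeometry

namespace Groth.Agent.Pi1.H395.Descend

open SGA1 Groth.Agent.Sga1.UnivSub

/-- Surjective universally closed morphisms are universally submersive. -/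
theorem univSubmersive_of_universallyClosed {X Y : Scheme.{u}} (f : X ⟶ Y) [UniversallyClosed f]
    [Surjective f] : UnivSubmersive f := by
  intro X' Y' i₁ i₂ f' h
  have h1 : Surjective f' := MorphismProperty.of_isPullback h.flip inferInstance
  have h2 : UniversallyClosed f' := MorphismProperty.of_isPullback h.flip inferInstance
  exact f'.isClosedMap.isQuotientMap f'.continuous f'.surjective

/-- A morphism from a connected scheme to a connected etale separated scheme is determined by a point. -/
theorem eq_of_connected {S P Q W : Scheme.{u}} (s : Q ⟶ S) [IsSeparated s] [FormallyUnramified s]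
    [LocallyOfFiniteType s] [ConnectedSpace P] (a b : P ⟶ Q) (h : a ≫ s = b ≫ s) (t : W ⟶ P)
    [Nonempty W] (ht : t ≫ a = t ≫ b) : a = b := by
  refine Pi1A.Agree.eq_of_agree s a b h t ht fun U hU hr => ?_
  have hcl : IsClopen (U : Set P) := ⟨hU, U.isOpen⟩
  have hne : (U : Set P).Nonempty := ⟨t.base (Classical.arbitrary W), hr ⟨_, rfl⟩⟩
  have := (isClopen_iff.mp hcl).resolve_left hne.ne_empty
  exact SetLike.coe_injective this

variable {P V : Scheme.{u}} (y : V ⟶ P) [Etale y] [IsSeparated y]
  {J : Type u} [Finite J] (Q : J → Scheme.{u}) (q : ∀ j, Q j ⟶ P) [∀ j, UniversallyClosed (q j)]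

include q in
/-- Descent of a compatible family of sections along a finite jointly surjective family of
universally closed morphisms with connected pairwise fibre products. -/
theorem exists_section (hsurj : ∀ p : P, ∃ j, p ∈ Set.range (q j))
    (hconn : ∀ j k, ConnectedSpace ↑(pullback (q j) (q k)))
    {W : Scheme.{u}} [Nonempty W] (ω : ∀ j, W ⟶ Q j)
    (hω : ∀ j k, ω j ≫ q j = ω k ≫ q k) (s : ∀ j, Q j ⟶ V) (hs : ∀ j, s j ≫ y = q j)
    (hsω : ∀ j k, ω j ≫ s j = ω k ≫ s k) :
    ∃ t : P ⟶ V, t ≫ y = 𝟙 P ∧ ∀ j, q j ≫ t = s j := by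
  let h : ∐ Q ⟶ P := Sigma.desc q
  have hc : UniversallyClosed h := Sga1.SigmaFinite.universallyClosed_sigmaDesc q
  have hsu : Surjective h := by
    constructor
    intro p
    obtain ⟨j, x, hx⟩ := hsurj p
    refine ⟨(Sigma.ι Q j).base x, ?_⟩
    rw [← Scheme.Hom.comp_apply, Sigma.ι_desc]
    exact hx
  have hagree : ∀ j k, pullback.fst (q j) (q k) ≫ s j = pullback.snd (q j) (q k) ≫ s k := by
    intro j k
    have := hconn j k
    refine eq_of_connected y _ _ ?_ (pullback.lift (ω j) (ω k) (hω j k)) ?_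
    · rw [Category.assoc, Category.assoc, hs, hs, pullback.condition]
    · rw [pullback.lift_fst_assoc, pullback.lift_snd_assoc, hsω j k]
  obtain ⟨t, ht1, ht2⟩ := Sga1.EtaleHom.exists_hom_of_compat h
    (univSubmersive_of_universallyClosed h) (𝟙 P) y (Sigma.desc s) (by
      apply Sigma.hom_ext
      intro j
      rw [Sigma.ι_desc_assoc, Category.comp_id, Sigma.ι_desc, hs]) (by
      intro L _ x₀ x₁ hx
      have key : ∀ x : Spec (CommRingCat.of L) ⟶ ∐ Q, ∃ (j : J) (x' : Spec (CommRingCat.of L) ⟶ Q j),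
          x = x' ≫ Sigma.ι Q j := by
        intro x
        obtain ⟨j, z, hz⟩ : ∃ (j : J) (z : Q j), (Sigma.ι Q j).base z =
            x.base (IsLocalRing.closedPoint L) := (sigmaOpenCover Q).exists_eq _
        have hr : Set.range x.base ⊆ Set.range (Sigma.ι Q j).base := by
          rintro _ ⟨w, rfl⟩
          refine ⟨z, ?_⟩
          rw [hz]
          congr 1
          exact Subsingleton.elim _ _
        exact ⟨j, IsOpenImmersion.lift (Sigma.ι Q j) x hr, (IsOpenImmersion.lift_fac _ _ _).symm⟩
      obtain ⟨j, x₀, rfl⟩ := key x₀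
      obtain ⟨k, x₁, rfl⟩ := key x₁
      have hx' : x₀ ≫ q j = x₁ ≫ q k := by
        have := hx
        rw [Category.assoc, Category.assoc, Sigma.ι_desc, Sigma.ι_desc] at this
        exact this
      rw [Category.assoc, Category.assoc, Sigma.ι_desc, Sigma.ι_desc]
      have e := congr(pullback.lift x₀ x₁ hx' ≫ $(hagree j k))
      rwa [pullback.lift_fst_assoc, pullback.lift_snd_assoc] at e)
  refine ⟨t, ht1, fun j => ?_⟩
  have := congr(Sigma.ι Q j ≫ $ht2)
  rwa [Sigma.ι_desc_assoc, Sigma.ι_desc] at this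

/-- Every point of the fibre of `T` at `ω` extends to a section. -/
def SecProp {P : Scheme.{u}} {Ω : Type u} [Field Ω] (ω : Spec (CommRingCat.of Ω) ⟶ P)
    (T : FEt.Cat P) : Prop :=
  ∀ v : FEt.fiberObj ω T, ∃ s : P ⟶ T.left, s ≫ T.hom = 𝟙 P ∧ ω ≫ s = v.1

end Groth.Agent.Pi1.H395.Descend
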