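import Groth.Agent.Sga1.StrictSection
import Groth.Agent.Sga1.EtaleSection
import Mathlib.AlgebraicGeometry.Morphisms.QuasiFinite

/-!
# Points of finite etale schemes over a strictly henselian local ring extend to sections
-/

set_option autoImplicit false
universe u

open CategoryTheory CategoryTheory.Limits AlgebraicGeometry IsLocalRing

namespace Groth.Agent.Pi1.H395.StrictSec

theorem exists_section_through {B : Type u} [CommRing B] [HenselianLocalRing B]
    [IsSepClosed (ResidueField B)] {W : Scheme.{u}} (f : W ⟶ Spec (CommRingCat.of B))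
    [AlgebraicGeometry.Etale f] [IsFinite f] {Ω : Type u} [Field Ω]
    (v : Spec (CommRingCat.of Ω) ⟶ W) :
    ∃ s : Spec (CommRingCat.of B) ⟶ W, s ≫ f = 𝟙 _ ∧ v = (v ≫ f) ≫ s := by
  let w : W := v.base (closedPoint Ω)
  obtain ⟨w', hw', hfw'⟩ : ∃ w' ∈ closure {w}, f.base w' = closedPoint B := by
    have h1 : IsClosed (f.base '' closure {w}) := f.isClosedMap _ isClosed_closure
    have h2 : f.base w ∈ f.base '' closure {w} := ⟨w, subset_closure rfl, rfl⟩
    have h3 : f.base w ⤳ closedPoint B := IsLocalRing.specializes_closedPoint _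
    obtain ⟨w', h4, h5⟩ := h3.mem_closed h1 h2
    exact ⟨w', h4, h5⟩
  have hfin : (f.base ⁻¹' {closedPoint B}).Finite := by
    exact f.finite_preimage_singleton _
  have hcl : ∀ z ∈ f.base ⁻¹' {closedPoint B}, IsClosed ({z} : Set W) := by
    intro z hz
    rw [← closure_subset_iff_isClosed]
    intro z' hz'
    have hzz : z ⤳ z' := specializes_iff_mem_closure.2 hz'
    have h1 : f.base z ⤳ f.base z' := hzz.map f.continuous
    have hz1 : f.base z = closedPoint B := hz
    rw [hz1] at h1
    have h2 : f.base z' = closedPoint B := by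
      have h3 := (IsLocalRing.isClosed_singleton_closedPoint B).closure_eq
      have h4 : (f.base z' : PrimeSpectrum B) ∈ closure ({closedPoint B} : Set (PrimeSpectrum B)) :=
        specializes_iff_mem_closure.1 h1
      rw [h3] at h4
      exact h4
    have hd := f.isDiscrete_preimage_singleton (closedPoint B)
    have : DiscreteTopology ↥(f.base ⁻¹' {closedPoint B}) := hd.to_subtype
    have h5 : (⟨z, hz⟩ : ↥(f.base ⁻¹' {closedPoint B})) ⤳ ⟨z', h2⟩ :=
      (Topology.IsInducing.subtypeVal.specializes_iff).1 hzz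
    have h6 := h5.eq
    exact (congrArg Subtype.val h6).symm
  let Z : Set W := f.base ⁻¹' {closedPoint B} \ {w'}
  have hZ : IsClosed Z := by
    have h1 : Z = ⋃ z ∈ Z, {z} := by simp
    rw [h1]
    exact (hfin.subset Set.sdiff_subset).isClosed_biUnion fun z hz => hcl z hz.1
  let X : W.Opens := ⟨Zᶜ, hZ.isOpen_compl⟩
  have hw'X : w' ∈ X := by
    simp [X, Z]
  obtain ⟨s, hs⟩ := Sga1.StrictSection.exists_section_of_strictlyHenselian (X.ι ≫ f) ⟨w', hw'X⟩ (by
    rw [Scheme.Hom.comp_apply]; exact hfw')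
  have hsX : (s ≫ X.ι).base (closedPoint B) = w' := by
    have h1 : f.base ((s ≫ X.ι).base (closedPoint B)) = closedPoint B := by
      rw [← Scheme.Hom.comp_apply, Category.assoc, hs]
      rfl
    have h2 : (s ≫ X.ι).base (closedPoint B) ∈ X := by
      rw [Scheme.Hom.comp_apply]
      exact (s.base (closedPoint B)).2
    by_contra hne
    exact h2 ⟨h1, hne⟩
  have hs' : (s ≫ X.ι) ≫ f = 𝟙 _ := by rw [Category.assoc, hs]
  refine ⟨s ≫ X.ι, hs', ?_⟩
  refine Sga1.EtaleSection.eq_comp_section f (s ≫ X.ι) hs' v ?_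
  have hopen := Sga1.EtaleSection.isOpenImmersion_section f (s ≫ X.ι) hs'
  have hr : IsOpen (Set.range (s ≫ X.ι).base) := (s ≫ X.ι).isOpenEmbedding.isOpen_range
  have hsp : w ⤳ w' := by
    rwa [specializes_iff_mem_closure]
  have hwr : w ∈ Set.range (s ≫ X.ι).base := hsp.mem_open hr ⟨_, hsX⟩
  rintro _ ⟨z, rfl⟩
  have : z = closedPoint Ω := Subsingleton.elim _ _
  rw [this]
  exact hwr

end Groth.Agent.Pi1.H395.StrictSec
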